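import Mathlib
import Cfsg.Agent.Lib.Isol.Basic

/-!
The order formula for groups with an isolated involution.
-/

set_option autoImplicit false

namespace CfsgLib.Isol

open Cfsg

variable {G : Type*} [Group G]

theorem card_eq_card_centralizer_mul (x : G) :
    Nat.card G = Nat.card (Subgroup.centralizer ({x} : Set G)) * Nat.card {y // IsConj x y} := by
  have h1 : {y : G | IsConj x y}.ncard = (Subgroup.centralizer ({x} : Set G)).index := by
    have : (ConjClasses.mk x).carrier.ncard = (Subgroup.centralizer ({x} : Set G)).index := by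
      rw [← ConjAct.orbit_eq_carrier_conjClasses, ← MulAction.index_stabilizer,
        ConjAct.stabilizer_eq_centralizer]
      rfl
    rw [← this]
    congr 1
  rw [← Subgroup.card_mul_index (Subgroup.centralizer ({x} : Set G)), ← h1,
    ← Nat.card_coe_set_eq]
  rfl

/-- The odd order elements inverted by `z` and commuting with `w` correspond to the conjugates of
`z` commuting with `w`. -/
theorem card_inverted_commute [Finite G] {z : G} (hz : IsIsolatedInvolution z) {w : G}
    (hw : Commute w z) :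
    Nat.card {k : G // Odd (orderOf k) ∧ z * k * z⁻¹ = k⁻¹ ∧ Commute k w} =
      Nat.card {t : G // IsConj z t ∧ Commute t w} := by
  let f : {k : G // Odd (orderOf k) ∧ z * k * z⁻¹ = k⁻¹ ∧ Commute k w} →
      {t : G // IsConj z t ∧ Commute t w} := fun k =>
    ⟨k.1 * z * k.1⁻¹, isConj_conj z k.1, (k.2.2.2.mul_left hw.symm).mul_left k.2.2.2.inv_left⟩
  refine Nat.card_congr (Equiv.ofBijective f ⟨?_, ?_⟩)
  · rintro ⟨k, h1, h2, h3⟩ ⟨k', h1', h2', h3'⟩ h
    exact Subtype.ext (odd_inverted_unique h1 h2 h1' h2' (congrArg Subtype.val h))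
  · rintro ⟨t, ht, htw⟩
    obtain ⟨g, rfl⟩ := isConj_iff.1 ht
    obtain ⟨k, hk, h1, h2, h3⟩ := exists_odd_inverted hz g
    obtain ⟨j, rfl⟩ := Subgroup.mem_zpowers_iff.1 hk
    exact ⟨⟨_, h1, h2, (hw.symm.mul_left htw).zpow_left j⟩, Subtype.ext h3⟩

theorem pow_odd_of_mul_self {u : G} (hu : u * u = 1) {m : ℕ} (hm : Odd m) : u ^ m = u := by
  obtain ⟨j, rfl⟩ := hm
  rw [pow_succ, pow_mul, pow_two, hu, one_pow, one_mul]

/-- For an involution `s` not conjugate to the isolated involution `z` and a conjugate `t` of `z`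
there is exactly one conjugate `t'` of `z` commuting with `s` such that `t` commutes with
`s t'`. -/
theorem existsUnique_partner [Finite G] {z s t : G} (hz : IsIsolatedInvolution z)
    (hs : s * s = 1) (hsz : ¬ IsConj z s) (ht : IsConj z t) :
    ∃! t' : G, IsConj z t' ∧ Commute t' s ∧ Commute t (s * t') := by
  have ht2 := mul_self_of_isConj hz ht
  have key : ∀ t', IsConj z t' → Commute t' s → Commute t (s * t') →
      ∃ m : ℕ, Odd m ∧ (s * t) ^ m = s * t' ∧ s * t' * (s * t') = 1 := by
    intro t' h1 h2 h3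
    have ht'2 := mul_self_of_isConj hz h1
    have h4 : s * t' * (s * t') = 1 := by rw [h2.mul_mul_mul_comm, hs, ht'2, one_mul]
    have h5 := odd_orderOf_mul hz h1 ht
    refine ⟨_, h5, ?_, h4⟩
    have h6 : s * t = s * t' * (t' * t) := by rw [mul_assoc, ← mul_assoc t', ht'2, one_mul]
    have h7 : Commute (s * t') (t' * t) :=
      Commute.mul_right (h2.symm.mul_left (Commute.refl t')) h3.symm
    rw [h6, h7.mul_pow, pow_orderOf_eq_one, mul_one, pow_odd_of_mul_self h4 h5]
  refine existsUnique_of_exists_of_unique ?_ ?_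
  · rcases Nat.even_or_odd (orderOf (s * t)) with ⟨m, hm⟩ | hodd
    · have hpos : 0 < orderOf (s * t) := orderOf_pos _
      have hm0 : 0 < m := by omega
      obtain ⟨h1, h2, h3⟩ := half_pow_of_even hs ht2 hm0 (by omega)
      rcases Nat.even_or_odd' m with ⟨j, rfl | rfl⟩
      · exfalso
        have h4 := conj_eq_mul_zpow (inverts_mul' hs ht2) j
        rw [show (2 * (j : ℤ)) = ((2 * j : ℕ) : ℤ) by push_cast; ring, zpow_natCast] at h4
        have h5 : IsConj z (t * (s * t) ^ (2 * j)) := by
          rw [← h4]; exact ht.trans (isConj_conj _ _)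
        have h6 := eq_of_commute hz ht h5 ((Commute.refl t).mul_right h3)
        have h7 : (s * t) ^ (2 * j) = 1 := by simpa using h6.symm
        rw [h7] at h1
        simp at h1
      · have h4 := mul_zpow_odd hs ht2 j
        rw [show (2 * (j : ℤ) + 1) = ((2 * j + 1 : ℕ) : ℤ) by push_cast; ring, zpow_natCast] at h4
        refine ⟨s * (s * t) ^ (2 * j + 1), ?_, (Commute.refl s).mul_left h2.symm, ?_⟩
        · rw [h4]; exact ht.trans (isConj_conj _ _)
        · rw [← mul_assoc, hs, one_mul]; exact h3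
    · exfalso
      obtain ⟨j, hj⟩ := exists_zpow_conj_of_odd hs ht2 hodd
      exact hsz (ht.trans (isConj_iff.2 ⟨_, hj⟩).symm)
  · rintro a b ⟨a1, a2, a3⟩ ⟨b1, b2, b3⟩
    obtain ⟨m, hm, hm', ha⟩ := key a a1 a2 a3
    obtain ⟨n, hn, hn', hb⟩ := key b b1 b2 b3
    have : s * a = s * b := by
      rw [← pow_odd_of_mul_self ha hn, ← hm', ← pow_mul, mul_comm, pow_mul, hn',
        pow_odd_of_mul_self hb hm]
    exact mul_left_cancel this

theorem card_commute_conj {z w : G} (c : G) :
    Nat.card {t : G // IsConj z t ∧ Commute t (c * w * c⁻¹)} =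
      Nat.card {t : G // IsConj z t ∧ Commute t w} := by
  refine Nat.card_congr (Equiv.subtypeEquiv (MulAut.conj c⁻¹).toEquiv fun t => ?_)
  simp only [MulEquiv.toEquiv_eq_coe, MulEquiv.coe_toEquiv, MulAut.conj_apply, inv_inv]
  constructor
  · rintro ⟨h1, h2⟩
    refine ⟨h1.trans (isConj_iff.2 ⟨c⁻¹, by simp⟩), ?_⟩
    have := h2.map (MulAut.conj c⁻¹)
    simpa [mul_assoc] using this
  · rintro ⟨h1, h2⟩
    refine ⟨h1.trans (isConj_iff.2 ⟨c, by simp [mul_assoc]⟩), ?_⟩
    have := h2.map (MulAut.conj c)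
    simpa [mul_assoc] using this

/-- The order formula in terms of conjugates: for an involution `s` commuting with the isolated
involution `z`. -/
theorem card_isConj_eq_mul [Finite G] {z s : G} (hz : IsIsolatedInvolution z)
    (hs : s * s = 1) (hsz : Commute s z) :
    Nat.card {t : G // IsConj z t} = Nat.card {t : G // IsConj z t ∧ Commute t (s * z)} *
      Nat.card {t : G // IsConj z t ∧ Commute t s} := by
  classical
  have hz2 := mul_self_of_orderOf_two hz.1
  by_cases h0 : s = z
  · subst h0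
    have h1 : Nat.card {t : G // IsConj s t ∧ Commute t s} = 1 := by
      rw [Nat.card_eq_one_iff_exists]
      refine ⟨⟨s, IsConj.refl s, Commute.refl s⟩, ?_⟩
      rintro ⟨t, h1, h2⟩
      exact Subtype.ext (eq_of_commute hz h1 (IsConj.refl s) h2)
    rw [h1, mul_one, hs]
    simp
  have hnc : ¬ IsConj z s := fun h => h0 (eq_of_commute hz h (IsConj.refl z) hsz)
  let e : {t : G // IsConj z t} ≃
      Σ t' : {t : G // IsConj z t ∧ Commute t s}, {t : G // IsConj z t ∧ Commute t (s * t'.1)} :=
    (Equiv.ofBijective (fun p : Σ t' : {t : G // IsConj z t ∧ Commute t s},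
        {t : G // IsConj z t ∧ Commute t (s * t'.1)} => (⟨p.2.1, p.2.2.1⟩ : {t : G // IsConj z t}))
      ⟨by
        rintro ⟨⟨a, a1, a2⟩, ⟨t, t1, t2⟩⟩ ⟨⟨b, b1, b2⟩, ⟨u, u1, u2⟩⟩ h
        obtain rfl : t = u := congrArg Subtype.val h
        obtain rfl : a = b := (existsUnique_partner hz hs hnc t1).unique ⟨a1, a2, t2⟩ ⟨b1, b2, u2⟩
        rfl,
      by
        rintro ⟨t, ht⟩
        obtain ⟨a, a1, a2, a3⟩ := (existsUnique_partner hz hs hnc ht).exists
        exact ⟨⟨⟨a, a1, a2⟩, ⟨t, ht, a3⟩⟩, rfl⟩⟩).symm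
  have := Fintype.ofFinite {t : G // IsConj z t ∧ Commute t s}
  rw [Nat.card_congr e, Nat.card_sigma, Finset.sum_congr rfl
    (g := fun _ => Nat.card {t : G // IsConj z t ∧ Commute t (s * z)})]
  · rw [Finset.sum_const, Finset.card_univ, smul_eq_mul, mul_comm, Nat.card_eq_fintype_card (α :=
      {t : G // IsConj z t ∧ Commute t s})]
  · rintro ⟨a, a1, a2⟩ -
    obtain ⟨j, hj⟩ := exists_zpow_conj hz (IsConj.refl z) a1
    have hc : Commute ((z * a) ^ j) s := (hsz.symm.mul_left a2).zpow_left j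
    have : s * a = (z * a) ^ j * (s * z) * ((z * a) ^ j)⁻¹ := by
      rw [← mul_assoc, hc.eq]
      nth_rewrite 1 [← hj]
      simp only [mul_assoc]
    rw [← card_commute_conj (w := s * z) ((z * a) ^ j), ← this]

end CfsgLib.Isol
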